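import Cfsg.Agent.INV.SEMod.Lin
import Cfsg.Agent.CHEV.PSMain
import Cfsg.Agent.CHEV.SzTor

/-! Involutions in the rank-one set-up invert elements of primitive prime order. -/

set_option autoImplicit false
open Cfsg Subgroup CL.ModB CL.PS CL.Dickson
open scoped MatrixGroups

namespace CL.SEMod

variable {G Ω F : Type*} [Group G] [Finite G] [MulAction G Ω] [Field F] [Fintype F] {a : Ω} {t : G}
  {Q : Subgroup G}

theorem big_lin (hS : IsRankOneSetup G Ω a t Q) (C : FC F a t Q) {n : ℕ}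
    (hF : Fintype.card F = 2 ^ n) (hn : 2 ≤ n) (hr : C.r * C.r = 1) : Big 2 (2 * n) t := by
  classical
  have := C.charP
  obtain ⟨r, k, h1, h2, h3, -, y, -, h5⟩ := big_psl_of_mem (p := 2) hF hn one_ne_zero
  obtain ⟨x, rfl⟩ := QuotientGroup.mk'_surjective _ y
  let pt : F → F → Ω := fun u v => if v = 0 then a else C.z (u / v) • t • a
  have step : ∀ u v, (v = 0 → u ≠ 0) → (t * C.z (tr x)) • pt u v = pt v (u + tr x * v) := by
    intro u v h
    by_cases hv : v = 0
    · simp [pt, hv, h hv, mul_smul, C.z_smul_a hS, C.z_zero]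
    have e : tr x + u / v = (u + tr x * v) / v := by field_simp; ring
    simp only [pt, if_neg hv]
    rw [mul_smul, smul_smul (C.z _), ← C.z_add, e]
    split_ifs with hw
    · rw [hw, zero_div, C.z_zero, one_smul, t_smul_t_smul hS]
    · rw [C.t_smul_z hS hr (div_ne_zero hw hv), inv_div]
  let m : SL(2, F) := mk2 0 1 1 (tr x) (by simp [CharTwo.neg_eq])
  have it : ∀ j, (t * C.z (tr x)) ^ j • a = pt ((m ^ j) 0 0) ((m ^ j) 1 0) := fun j => by
    induction j with
    | zero => simp [pt]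
    | succ j ih =>
      rw [pow_succ', mul_smul, ih, step _ _ fun e e' => by simpa [e, e'] using det2 (m ^ j), pow_succ']
      simp only [mul_apply2, m, mk00, mk01, mk10, mk11, zero_mul, one_mul, zero_add]
  have key : r ^ (k + 1) ∣ orderOf (t * C.z (tr x)) := by
    obtain ⟨α, β, h⟩ := pow_eq_lin (tr x) (orderOf (t * C.z (tr x)))
    have e := it (orderOf (t * C.z (tr x)))
    rw [pow_orderOf_eq_one, one_smul, (h m (zero_add _)).2.2.1] at e
    have hα : α = 0 := by_contra fun c => smul_ne_a (C.z_smul_a hS _) (t_smul_ne hS) (by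
      simpa [pt, m, mk10, c] using e.symm)
    obtain ⟨a1, a2, a3, a4⟩ := h x rfl
    refine h5.trans (orderOf_dvd_of_pow_eq_one ?_)
    rw [← map_pow, QuotientGroup.mk'_apply, QuotientGroup.eq_one_iff, mem_center_iff']
    simp [a1, a2, a3, a4, hα]
  obtain ⟨g, hg⟩ := exists_conj_involution hS hS.ne_one hS.mul_self (v := C.z (tr x))
    (fun e => h2 ((Nat.prime_dvd_prime_iff_eq h1 Nat.prime_two).1 ((dvd_pow_self r k.succ_ne_zero).trans
      (key.trans (orderOf_dvd_of_pow_eq_one (by rw [e, mul_one, sq, hS.mul_self])))))) (C.z_mul_self _)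
  exact ⟨r, k, h1, h2, h3, g, _, mul_mem (subset_closure (.inl rfl)) (subset_closure (.inr hg.symm)), key⟩

theorem big_sz {m : ℕ} (hm : 1 ≤ m) (hF : Fintype.card F = 2 ^ (2 * m + 1)) :
    ∃ t : Lie.Sz F (2 ^ (m + 1)), orderOf t = 2 ∧ Big 2 (2 * (2 * (2 * m + 1))) t := by
  have := CL.Sz.charP_two hF
  let M := CL.Sz.lieModel hF
  obtain ⟨r, h1, h2, h3⟩ := CL.Zsig.exists_zsigmondy_prime 2 (2 * (2 * (2 * m + 1))) one_lt_two
    (by omega) (by omega) (by omega)
  have hr2 : r ≠ 2 := by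
    rintro rfl
    exact absurd ((Nat.dvd_sub_iff_right (Nat.one_le_pow _ _ two_pos)
      (dvd_pow_self 2 (by omega))).1 h2) (by norm_num)
  have h4 : r ∣ Nat.card F ^ 2 + 1 := by
    rw [Nat.card_eq_fintype_card, hF, ← pow_mul, mul_comm _ 2]
    rw [mul_comm, pow_mul, ← one_pow 2, Nat.sq_sub_sq] at h2
    exact (h1.dvd_mul.1 h2).resolve_right (h3 _ (by omega) (by omega))
  obtain ⟨x, hx1, hx⟩ := M.exists_pow_eq_one h4 h1.one_lt
  have : Fact r.Prime := ⟨h1⟩
  have hxo := orderOf_eq_prime hx hx1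
  have hT := (M.FPF_iff.2 ⟨hx1, orderOf_dvd_iff_pow_eq_one.1 (hxo ▸ h4)⟩).tor hm hF
  obtain ⟨⟨t, ht⟩, ht2⟩ := exists_prime_orderOf_dvd_card' (G := Subgroup.normalizer
    (Subgroup.centralizer {x} : Set (Cfsg.Lie.Sz F (2 ^ (m + 1))))) 2 (by
      rw [hT.card]; exact Dvd.dvd.mul_right (by norm_num) _)
  rw [Subgroup.orderOf_mk] at ht2
  have h5 := hT.conj_eq_inv ht ht2 (Subgroup.mem_centralizer_singleton_iff.2 rfl)
  exact ⟨t, ht2, r, 0, h1, hr2,
    fun e a b => not_lt.1 fun c => h3 e a c (by simpa using b), x, _,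
    mul_mem (Subgroup.subset_closure (.inl rfl)) (Subgroup.subset_closure (.inr rfl)), by
      rw [show t * (x * t * x⁻¹) = (x ^ 2)⁻¹ by rw [← mul_assoc, ← mul_assoc, h5]; group,
        orderOf_inv, (hxo ▸ (Nat.coprime_primes h1 Nat.prime_two).2 hr2 :
          (orderOf x).Coprime 2).orderOf_pow, hxo, zero_add, pow_one]⟩

/-- In the rank-one set-up with `|Ω₁(Q)| = 2ⁿ`. -/
theorem exists_big [FaithfulSMul G Ω] (hS : IsRankOneSetup G Ω a t Q) (h2 : Rank2 G) :
    ∃ n, 2 ≤ n ∧ Nat.card {x : G // x ∈ Q ∧ x * x = 1} = 2 ^ n ∧ Big 2 (2 * n) t ∧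
      ((∃ k, Nat.card Q = 2 ^ k ∧ Big 2 (2 * k) t) ∨ Nat.card Q = 2 ^ (3 * n)) := by
  obtain ⟨n, hn, ⟨C⟩, h⟩ := suzuki hS h2
  have := Fintype.ofFinite (GaloisField 2 n)
  have hF : Nat.card (GaloisField 2 n) = 2 ^ n := GaloisField.card 2 n (by omega)
  have hF' := Nat.card_eq_fintype_card.symm.trans hF
  refine ⟨n, hn, C.card_Q0.trans hF, ?_⟩
  obtain ⟨h, h1, -⟩ | ⟨h, m, h1, rfl, h3⟩ | ⟨h, -⟩ := h
  · have := big_lin hS C hF' hn (h1 _ C.r_mem)
    exact ⟨this, .inl ⟨n, h, this⟩⟩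
  · obtain ⟨e⟩ := h3
    obtain ⟨s, hs, hb⟩ := big_sz h1 hF'
    let f := (Lg t Q).subtype.comp e.symm.toMonoidHom
    have hf : Function.Injective f := (subtype_injective _).comp e.symm.injective
    have hs' := (orderOf_injective f hf s).trans hs
    obtain ⟨g, hg⟩ := exists_conj_involution hS (TwoInv.ne_one_of_orderOf_eq_two hs')
      (TwoInv.mul_self_of_orderOf_eq_two hs') hS.ne_one hS.mul_self
    have := hg ▸ (Big.map hf hb).conj g
    exact ⟨Big.mono this (by omega), .inl ⟨_, by rw [h, ← pow_mul, mul_comm], this⟩⟩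
  · have W := weak hS h2
    refine ⟨big_lin hS C hF' hn (UHyp.hr ⟨hS, inferInstance, W.pgroup, ?_, hF ▸ h, fun e => ?_⟩),
      .inr (by rw [h, ← pow_mul, mul_comm])⟩
    · by_contra! H
      have : Nat.card {x : G // x ∈ Q ∧ x * x = 1} = Nat.card Q := Nat.card_congr
        (Equiv.subtypeEquivRight fun x => and_iff_left_of_imp (W.elem H x))
      rw [C.card_Q0, hF, h, ← pow_mul] at this
      have := Nat.pow_right_injective le_rfl this
      omega
    · obtain ⟨w, hw, h1, x, hx, h3⟩ := W.cube (by rw [C.card_Q0, hF, h])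
      have : w ∈ Wg a t := (C.mem_W_iff hS).mpr ⟨hw, fun y => h1 _ (C.z_mem y) (C.z_mul_self y)⟩
      rw [e, Subgroup.mem_bot] at this
      exact h3 (by rw [this, one_mul, mul_one])

end CL.SEMod
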