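import Cfsg.Agent.TECH.ModBound

/-! Dimension bounds for faithful modules over the field with two elements. -/

set_option autoImplicit false
open Cfsg Subgroup Module CL.ModB SemidirectProduct

namespace CL.SEMod

variable {G V : Type*} [Group G] [AddCommGroup V] [Module (ZMod 2) V]
  {ρ : Representation (ZMod 2) G V}

theorem Big.map {L : Type*} [Group L] {f : G →* L} (hf : Function.Injective f) {p d : ℕ} {x : G}
    (h : Big p d x) : Big p d (f x) := by
  obtain ⟨r, k, h1, h2, h3, g, y, h4, h5⟩ := h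
  refine ⟨r, k, h1, h2, h3, f g, f y, ?_, by rwa [orderOf_injective f hf]⟩
  rw [← map_inv, ← map_mul, ← map_mul, ← Set.image_pair, ← MonoidHom.map_closure]
  exact mem_map_of_mem f h4

theorem Big.mono {p d e : ℕ} {x : G} (h : Big p d x) (he : e ≤ d) : Big p e x := by
  obtain ⟨r, k, h1, h2, h3, h4⟩ := h
  exact ⟨r, k, h1, h2, fun a b c => he.trans (h3 a b c), h4⟩

/-- The action on the multiplicative copy of `V`. -/
def aut (ρ : Representation (ZMod 2) G V) : G →* MulAut (Multiplicative V) where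
  toFun g :=
    { toFun := fun v => .ofAdd (ρ g v.toAdd)
      invFun := fun v => .ofAdd (ρ g⁻¹ v.toAdd)
      left_inv := fun v => by simp
      right_inv := fun v => by simp
      map_mul' := fun v w => by simp }
  map_one' := by ext; simp
  map_mul' g h := by ext; simp

theorem comm_iff (g : G) (v : Multiplicative V) :
    (inl v : _ ⋊[aut ρ] G) * inr g = inr g * inl v ↔ ρ g v.toAdd = v.toAdd := by
  rw [eq_comm, ← mul_inv_eq_iff_eq_mul, ← map_inv, ← inl_aut, inl_inj]
  exact Iff.rfl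

variable [Finite G] [Module.Finite (ZMod 2) V]

theorem big_aux (hρ : Function.Injective ρ) {s : G} :
    (∀ {d}, Big 2 d s → d ≤ finrank (ZMod 2) V) ∧
      ∀ {d}, Big 2 (2 * d) s → d ≤ finrank (ZMod 2) (LinearMap.range (ρ s - 1)) := by
  have : Finite V := Module.finite_of_finite (ZMod 2)
  have : Finite (Multiplicative V ⋊[aut ρ] G) := Finite.of_equiv _ equivProd.symm
  let W : Subgroup (Multiplicative V ⋊[aut ρ] G) := inl.range
  have hW : IsElementaryAbelian 2 W := by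
    refine ⟨⟨⟨fun ⟨_, a, rfl⟩ ⟨_, b, rfl⟩ => Subtype.ext ?_⟩⟩, ?_⟩
    · exact (map_mul inl a b).symm.trans (mul_comm a b ▸ map_mul inl b a)
    · rintro _ ⟨a, rfl⟩
      rw [← map_pow, show a ^ 2 = 1 from ZModModule.char_nsmul_eq_zero 2 a.toAdd, map_one]
  have hn : (inr : G →* _).range ≤ normalizer (W : Set (Multiplicative V ⋊[aut ρ] G)) := by
    have : W.Normal := by
      rw [show W = _ from range_inl_eq_ker_rightHom]; exact MonoidHom.normal_ker _
    exact le_normalizer_of_normal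
  have hf : (inr : G →* _).range ⊓ centralizer (W : Set (Multiplicative V ⋊[aut ρ] G)) = ⊥ := by
    refine eq_bot_iff.2 ?_
    rintro _ ⟨⟨g, rfl⟩, h⟩
    rw [hρ (show ρ g = ρ 1 from LinearMap.ext fun v => by
      simpa using (comm_iff g (.ofAdd v)).1 (h _ ⟨_, rfl⟩)), map_one]
    exact one_mem _
  have hb : ∀ {d}, Big 2 d s → Big 2 d ((inr : G →* Multiplicative V ⋊[aut ρ] G).rangeRestrict s) :=
    Big.map ((MonoidHom.rangeRestrict_injective_iff).2 inr_injective)
  have hc : Nat.card W = 2 ^ finrank (ZMod 2) V := by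
    rw [← Nat.card_congr (MonoidHom.ofInjective inl_injective).toEquiv]
    exact (Module.natCard_eq_pow_finrank (K := ZMod 2) (V := V)).trans (by simp)
  refine ⟨fun h => (Nat.pow_le_pow_iff_right one_lt_two).1 (hc ▸ (hb h).le_card hW hn hf), fun h => ?_⟩
  have h1 := (hb h).le hW hn hf
  have h2 := CL.card_mul_relIndex_of_le (inf_le_left : W ⊓ centralizer {(inr s : _ ⋊[aut ρ] G)} ≤ W)
  have h3 : Nat.card (W ⊓ centralizer {(inr s : _ ⋊[aut ρ] G)} : Subgroup _) =
      2 ^ finrank (ZMod 2) (LinearMap.ker (ρ s - 1)) := by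
    rw [show 2 ^ _ = _ by simpa using (Module.natCard_eq_pow_finrank (K := ZMod 2)
      (V := LinearMap.ker (ρ s - 1))).symm]
    refine (Nat.card_congr (Equiv.ofBijective (fun v => ⟨inl (.ofAdd v.1), ⟨_, rfl⟩,
      mem_centralizer_singleton_iff.2 ((comm_iff s _).2 (sub_eq_zero.1 v.2))⟩)
      ⟨fun v w e => Subtype.ext (Multiplicative.ofAdd.injective (inl_injective (congrArg Subtype.val e))), ?_⟩)).symm
    rintro ⟨_, ⟨v, rfl⟩, h⟩
    exact ⟨⟨v.toAdd, sub_eq_zero.2 ((comm_iff s v).1 (mem_centralizer_singleton_iff.1 h))⟩, rfl⟩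
  rw [h3, hc, ← (ρ s - 1 : End (ZMod 2) V).finrank_range_add_finrank_ker, pow_add, mul_comm] at h2
  exact (Nat.pow_le_pow_iff_right one_lt_two).1
    (Nat.eq_of_mul_eq_mul_right (pow_pos two_pos _) h2 ▸ h1)

omit [Finite G] in
theorem card_dvd (hρ : Function.Injective ρ) :
    Nat.card G ∣ ∏ i : Fin (finrank (ZMod 2) V), (2 ^ finrank (ZMod 2) V - 2 ^ (i : ℕ)) := by
  have h := Matrix.card_GL_field (𝔽 := ZMod 2) (finrank (ZMod 2) V)
  rw [ZMod.card, Nat.card_congr (Matrix.GeneralLinearGroup.toLin' (finBasis (ZMod 2) V)).toEquiv] at h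
  exact h ▸ card_dvd_of_injective ρ.toHomUnits fun a b e => hρ (congrArg Units.val e)

omit [Finite G] in
theorem le_of_prime_dvd (hρ : Function.Injective ρ) {r d : ℕ} (hr : r.Prime) (h2 : r ≠ 2)
    (hd : ∀ e, 0 < e → e < d → ¬ r ∣ 2 ^ e - 1) (h : r ∣ Nat.card G) : d ≤ finrank (ZMod 2) V := by
  obtain ⟨⟨i, hi2⟩, -, hi⟩ := (hr.prime.dvd_finsetProd_iff _).1 (h.trans (card_dvd hρ))
  change r ∣ 2 ^ _ - 2 ^ i at hi
  rw [← Nat.sub_add_cancel hi2.le, pow_add, ← Nat.sub_one_mul] at hi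
  exact (not_lt.1 fun c => hd _ (Nat.sub_pos_of_lt hi2) c (((Nat.coprime_primes hr Nat.prime_two).2
    h2).pow_right _ |>.dvd_of_dvd_mul_right hi)).trans (Nat.sub_le _ _)

omit [Finite G] in
theorem pow_eq_one (hρ : Function.Injective ρ) {x : G} {k j : ℕ} (h : x ^ 2 ^ k = 1)
    (hj : finrank (ZMod 2) V ≤ 2 ^ j) : x ^ 2 ^ j = 1 := by
  rcases subsingleton_or_nontrivial V with _ | _
  · exact hρ (Subsingleton.elim _ _)
  have : CharP (End (ZMod 2) V) 2 := charP_of_injective_algebraMap (algebraMap (ZMod 2) _).injective 2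
  have e : ∀ n, (ρ x - 1) ^ 2 ^ n = ρ (x ^ 2 ^ n) - 1 := fun n => by
    rw [sub_pow_char_pow_of_commute _ _ (Commute.one_right _), one_pow, map_pow]
  refine hρ (sub_eq_zero.1 ?_)
  rw [map_one, ← e, ← LinearMap.ker_eq_top, End.ker_pow_eq_ker_pow_finrank_of_le hj, eq_top_iff]
  refine le_trans ?_ (End.ker_pow_le_ker_pow_finrank _ (2 ^ k))
  rw [e, h, map_one, sub_self, LinearMap.ker_zero]

theorem card_le_of_frobenius (hρ : Function.Injective ρ) {W S : Subgroup G} (hW : Odd (Nat.card W))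
    (hS : IsPGroup 2 S) (hn : S ≤ normalizer (W : Set G)) (hne : W ≠ ⊥)
    (hreg : ∀ s ∈ S, s ≠ 1 → W ⊓ centralizer {s} = ⊥) : Nat.card S ≤ finrank (ZMod 2) V := by
  classical
  have := Fintype.ofFinite S
  have := Fintype.ofFinite W
  obtain ⟨v, hv⟩ : ∃ v, ∑ s : S, ρ s v ≠ 0 := by
    by_contra! H
    have hN : ∑ s : S, ρ s = 0 := LinearMap.ext fun v => by simpa using H v
    have e1 : ∀ s ∈ Finset.univ.erase (1 : S), ∑ w : W, ρ (w * s * (w : G)⁻¹) = (∑ w : W, ρ w) * ρ s := by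
      intro s hs
      rw [Finset.sum_mul]
      refine Fintype.sum_bijective (fun w : W => ⟨w * ((s : G) * (w : G)⁻¹ * (s : G)⁻¹), mul_mem w.2
        ((mem_normalizer_iff.1 (hn s.2) _).1 (inv_mem w.2))⟩) (Finite.injective_iff_bijective.1
          fun a b e => Subtype.ext (inv_mul_eq_one.1 (mem_bot.1 ((hreg s s.2 fun e =>
            (Finset.mem_erase.1 hs).1 (Subtype.ext e)).le ⟨W.mul_mem (W.inv_mem a.2) b.2, ?_⟩)))) _ _
        fun w => by rw [← map_mul]; congr 1; group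
      replace e : (a : G) * (s * (a : G)⁻¹ * (s : G)⁻¹) = b * (s * (b : G)⁻¹ * (s : G)⁻¹) :=
        congrArg Subtype.val e
      refine mem_centralizer_singleton_iff.2 ?_
      calc _ = (a : G)⁻¹ * (b * (s * (b : G)⁻¹ * (s : G)⁻¹)) * s * b := by group
        _ = _ := by rw [← e]; group
    have e2 : ∑ w : W, ρ w = 1 := by
      have e3 : ∑ s : S, ∑ w : W, ρ (w * s * (w : G)⁻¹) = 0 := by
        rw [Finset.sum_comm]
        simp only [map_mul, ← Finset.sum_mul, ← Finset.mul_sum, hN, mul_zero, zero_mul,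
          Finset.sum_const_zero]
      rw [← Finset.add_sum_erase _ _ (Finset.mem_univ 1), Finset.sum_congr rfl e1, ← Finset.mul_sum,
        Finset.sum_erase_eq_sub (Finset.mem_univ _), hN] at e3
      obtain ⟨n, hn⟩ := hW
      simp only [coe_one, mul_one, mul_inv_cancel, map_one, Finset.sum_const, Finset.card_univ,
        zero_sub, mul_neg, ← Nat.card_eq_fintype_card, hn, add_smul, one_smul, mul_smul,
        ZModModule.char_nsmul_eq_zero, zero_add] at e3
      exact (add_neg_eq_zero.1 e3).symm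
    refine hne (eq_bot_iff.2 fun w hw => hρ ?_)
    rw [map_one, ← mul_one (ρ w), ← e2, Finset.mul_sum]
    exact Fintype.sum_bijective _ (Group.mulLeft_bijective (⟨w, hw⟩ : W)) _ _ fun a => by simp
  rw [Nat.card_eq_fintype_card]
  refine LinearIndependent.fintype_card_le_finrank (b := fun s : S => ρ s v)
    (Fintype.linearIndependent_iff.2 fun c hc => congrFun (by_contra fun hc0 => hv ?_ : c = 0))
  let I := LinearMap.ker (Fintype.linearCombination (ZMod 2) fun s : S => ρ s v)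
  let _ : MulAction S I :=
    { smul := fun g c => ⟨fun s => c.1 (g⁻¹ * s), by
        have := congrArg (ρ g) c.2
        rw [map_zero, Fintype.linearCombination_apply, map_sum] at this
        rw [LinearMap.mem_ker, Fintype.linearCombination_apply, ← this]
        exact (Fintype.sum_bijective _ (Group.mulLeft_bijective g) _ _ fun a => by simp).symm⟩
      one_smul := fun c => Subtype.ext (funext fun s => congrArg c.1 (by simp))
      mul_smul := fun g h c => Subtype.ext (funext fun s => congrArg c.1 (by simp [mul_assoc])) }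
  obtain ⟨b, hb, h0⟩ := hS.exists_fixed_point_of_prime_dvd_card_of_fixed_point I (a := 0)
    ((addOrderOf_eq_prime (x := (⟨c, hc⟩ : I)) (ZModModule.char_nsmul_eq_zero 2 _)
      fun e => hc0 (congrArg Subtype.val e)).symm.dvd.trans (addOrderOf_dvd_natCard _)) fun _ => rfl
  have h1 : ∀ s, b.1 s = b.1 1 := fun s =>
    (congrFun (congrArg Subtype.val (hb s)) s).symm.trans (congrArg b.1 (inv_mul_cancel s))
  have h2 := b.2
  rw [LinearMap.mem_ker, Fintype.linearCombination_apply] at h2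
  simp only [h1, ← Finset.smul_sum] at h2
  exact (smul_eq_zero.1 h2).resolve_left fun e => h0 (Subtype.ext (funext fun s => ((h1 s).trans e).symm))

theorem arith {k d q r : ℕ} (hq : q.Prime) (h2 : q ≠ 2) (hr : 1 ≤ r) (hk : k ≤ 5) (hd : d < 2 * k)
    (h : q ^ (r + 1) ∣ ∏ i : Fin d, (2 ^ d - 2 ^ (i : ℕ))) : ¬ 2 ^ k ∣ q ^ r - 1 := by
  have hN : ∀ d ≤ 9, ∏ i : Fin d, (2 ^ d - 2 ^ (i : ℕ)) ∣ 2 ^ 36 * (3 ^ 5 * (5 ^ 2 * (7 ^ 3 *
      (17 * (31 * (73 * 127)))))) := by decide +kernel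
  have h1 := h.trans (hN d (by omega))
  have h3 := (dvd_pow_self q r.succ_ne_zero).trans h1
  have h4 : q ≤ 127 := by
    simp only [hq.dvd_mul] at h3
    rcases h3 with h | h | h | h | h | h | h | h <;>
      first | exact (Nat.le_of_dvd (by norm_num) (hq.dvd_of_dvd_pow h)).trans (by norm_num)
            | exact (Nat.le_of_dvd (by norm_num) h).trans (by norm_num)
  have h5 : ∀ q ≤ 127, q.Prime → q ≠ 2 → (¬ q ^ 6 ∣ 2 ^ 36 * (3 ^ 5 * (5 ^ 2 * (7 ^ 3 *
      (17 * (31 * (73 * 127))))))) ∧ (q ^ 2 ∣ 2 ^ 36 * (3 ^ 5 * (5 ^ 2 * (7 ^ 3 *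
      (17 * (31 * (73 * 127)))))) → q ≤ 7) := by decide +kernel
  have h6 : r ≤ 4 := not_lt.1 fun c => (h5 q h4 hq h2).1 ((pow_dvd_pow q (by omega)).trans h1)
  have h7 := (h5 q h4 hq h2).2 ((pow_dvd_pow q (by omega)).trans h1)
  have h8 : ∀ k < 6, ∀ d < 2 * k, ∀ q < 8, ∀ r < 5, ¬ (q.Prime ∧ q ≠ 2 ∧ 1 ≤ r ∧
      q ^ (r + 1) ∣ ∏ i : Fin d, (2 ^ d - 2 ^ (i : ℕ)) ∧ 2 ^ k ∣ q ^ r - 1) := by
    set_option synthInstance.maxSize 1024 in decide +kernel
  exact fun e => h8 k (by omega) d hd q (by omega) r (by omega) ⟨hq, h2, hr, h, e⟩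

end CL.SEMod
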