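import Cfsg.Agent.INV.SEMod.Big
import Cfsg.Agent.INV.Bender.Cons
import Cfsg.Agent.INV.Bender.APsi
import Cfsg.Agent.ODD.BG3Frob
import Cfsg.Agent.ODD.BaseQuo2

/-! Faithful modules in characteristic two for groups with a strongly embedded subgroup. -/

set_option autoImplicit false
open Cfsg Subgroup Module CL.ModB CL.BG CL.Bender CL.TwoInv

namespace CL.SEMod

variable {G V : Type*} [Group G] [Finite G] [AddCommGroup V] [Module (ZMod 2) V]
  [Module.Finite (ZMod 2) V] {ρ : Representation (ZMod 2) G V} {H : Subgroup G}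

omit [Finite G] in
theorem inf_eq_bot_of_inverted {W : Subgroup G} (hW : Odd #|W|) {z s : G}
    (hz : ∀ w ∈ W, z * w * z⁻¹ = w⁻¹) (hs : z ∈ zpowers s) : W ⊓ 𝐂₁(s) = ⊥ :=
  eq_bot_iff.2 fun w hw => PS.eq_of_mul_self_eq (PS.odd_orderOf_of_mem hW hw.1) (by simp) (by
    have := mem_cent1_iff.1 (zpowers_le.2 (mem_cent1_comm.1 hw.2) hs)
    nth_rw 1 [← mul_inv_eq_iff_eq_mul.2 this, hz w hw.1]; simp)

theorem le_of_not_rank2 (hH : IsStronglyEmbedded H) (h2 : ¬ PS.Rank2 G) (S : Sylow 2 G)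
    (hρ : Function.Injective ρ) {k : ℕ} (hk : #|(S : Subgroup G)| = 2 ^ k) :
    2 * k ≤ finrank (ZMod 2) V := by
  obtain ⟨z', hz'H, hz'⟩ := StrongEmb.exists_involution hH
  obtain ⟨z, hz, hz2⟩ := SPE.exists_mem_orderOf_eq_of_isPGroup (S.isPGroup'.to_le inf_le_left)
    (MSS.inf_centralizer_ne_bot S.isPGroup' S.isPGroup' le_normalizer
      (S.ne_bot_of_dvd_card (hz' ▸ orderOf_dvd_natCard z')))
  have hzz := mul_self_of_orderOf_eq_two hz2
  have hO : Odd #|oddCore G| := Nat.coprime_two_right.1 (coprime_card_pPrimeCore 2 G)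
  have h1 : ¬ oddCore G ≤ 𝐂₁(z) := fun e => by
    have := sup_centralizer_of_isolated (isolated_of_not_rank2 h2 hz2)
    rw [sup_eq_right.2 e] at this
    obtain rfl := eq_of_not_rank2 h2 hz' hz2 (mem_cent1_iff.1 (this ▸ mem_top z'))
    exact hH.1 (eq_top_iff.2 (this.ge.trans (StrongEmb.centralizer_le hH hz'H hz')))
  obtain ⟨q, hq, hqd⟩ := Nat.exists_prime_and_dvd (mt relIndex_eq_one.1 h1)
  have := Fact.mk hq
  obtain ⟨R, hR, hSR⟩ := coprime_Hall_exists {q} (A := S) le_normalizer_of_normal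
    (hk ▸ (Nat.coprime_two_right.2 hO).pow_right k) (Cfsg.Agent.S0205.result hO)
  have hRo := hO.of_dvd_nat (card_dvd_of_le hR.le)
  set W := closure (invertedBy R z)
  have hWR : W ≤ R := closure_invertedBy_le R z
  have hWo := hRo.of_dvd_nat (card_dvd_of_le hWR)
  have hW : W ≠ ⊥ := fun e => hR.not_dvd_relIndex hq rfl (hqd.trans (relIndex_dvd_of_le_left _
    fun x hx => by
      obtain ⟨u, -, hu, k, hk, rfl⟩ := PS.exists_centralizer_mul_inverted hRo hzz
        (fun x => (mem_normalizer_iff.1 (hSR hz.1) x).1) hx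
      rw [mem_bot.1 (e.le (subset_closure hk)), mul_one]
      exact mem_cent1_iff.2 hu))
  have hSW : (S : Subgroup G) ≤ 𝐍(W) := fun s hs =>
    mem_normalizer_closure_invertedBy (hSR hs) (hz.2 s hs)
  have hi : ∀ w ∈ W, z * w * z⁻¹ * w ∈ ⁅W, W⁆ := fun w =>
    mul_mem_commutator_of_le_closure (hSW hz.1) (le_closure_invertedBy_self R z)
  have hs : ∀ s ∈ (S : Subgroup G), s ≠ 1 → z ∈ zpowers s := fun s hs h => by
    obtain ⟨y, hy, hy2⟩ := SPE.exists_mem_orderOf_eq_of_isPGroup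
      (S.isPGroup'.to_le (zpowers_le.2 hs)) (mt zpowers_eq_bot.1 h)
    exact eq_of_not_rank2 h2 hy2 hz2 (hz.2 y (zpowers_le.2 hs hy)) ▸ hy
  rcases eq_or_ne ⁅W, W⁆ ⊥ with hW' | hW'
  · refine le_trans ?_ (hk ▸ card_le_of_frobenius hρ hWo S.isPGroup' hSW hW fun s h h' =>
      inf_eq_bot_of_inverted hWo (fun w hw => eq_inv_of_mul_eq_one_left (mem_bot.1 (hW' ▸ hi w hw)))
        (hs s h h'))
    rcases k with _ | k
    · simp
    · rw [pow_succ']; exact Nat.mul_le_mul_left 2 k.lt_two_pow_self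
  by_contra! hd
  have hn := norm_le_norm_der1 W
  have hWn := le_normalizer.trans hn
  have hWq := hR.piGrp.isPGroup.to_le hWR
  have e1 := regular_norm_dvd_pred (quo_norms ⁅W, W⁆ hSW) fun s h h' => by
    obtain ⟨s, hs', rfl⟩ := (mem_quo_of_le (hSW.trans hn)).1 h
    refine inf_eq_bot_of_inverted (z := coset _ z) (odd_quo _ hWo) (fun w hw => ?_)
      (quo_zpowers (hn (hSW hs')) ▸ coset_mem_quo _ (hs s hs' fun e => h' (by rw [e, coset_one])))
    obtain ⟨w, hw', rfl⟩ := (mem_quo_of_le hWn).1 hw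
    refine eq_inv_of_mul_eq_one_left ?_
    rw [← coset_conj (hn (hSW hz.1)) (hWn hw'), ← coset_mul (hWn
      ((mem_normalizer_iff.1 (hSW hz.1) w).1 hw')) (hWn hw'), coset_eq_one_of_mem (hi w hw')]
  rw [card_quo_of_inf_eq_bot (hSW.trans hn) (BG.inf_eq_bot_of_coprime (hk ▸ (Nat.coprime_two_right.2
    (hWo.of_dvd_nat (card_dvd_of_le (der1_le W)))).pow_right k)), hk] at e1
  obtain ⟨r, hr⟩ := IsPGroup.iff_card.1 (isPGroup_quo hWq ⁅W, W⁆)
  have e2 : q ^ (r + 1) ∣ Nat.card G := by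
    refine dvd_trans ?_ (card_subgroup_dvd_card W)
    rw [← (normalIn_der1 W).card_quo_mul, hr, pow_succ']
    exact mul_dvd_mul_right (MSS.dvd_card_of_isPGroup_le (hWq.to_le (der1_le W)) hW' le_rfl) _
  refine arith hq ?_ (Nat.pos_of_ne_zero fun e => ?_) (not_lt.1 fun c => ?_) hd
    (e2.trans (card_dvd hρ)) (hr ▸ e1)
  · rintro rfl
    exact (Nat.not_even_iff_odd.2 hWo) (even_iff_two_dvd.2 (MSS.dvd_card_of_isPGroup_le hWq hW le_rfl))
  · rw [e, pow_zero, card_eq_one, quo_eq_bot_iff hWn] at hr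
    exact (commutator_lt_of_isPGroup hWq hWq le_normalizer hW).not_ge hr
  · obtain ⟨x, hx⟩ : ∃ x : S, 2 ^ (k - 1) ≤ orderOf x := by
      rcases sylow_of_not_rank2 h2 S with h | ⟨m, -, ⟨e⟩⟩
      · obtain ⟨x, hx⟩ := IsCyclic.exists_ofOrder_eq_natCard (α := S)
        exact ⟨x, by rw [hx, hk]; exact Nat.pow_le_pow_right two_pos (by omega)⟩
      · refine ⟨e.symm (.a 1), ?_⟩
        rw [Nat.card_congr e.toEquiv, Nat.card_eq_fintype_card, QuaternionGroup.card] at hk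
        rw [MulEquiv.orderOf_eq, QuaternionGroup.orderOf_a_one]
        obtain ⟨k, rfl⟩ := Nat.exists_eq_add_of_lt c
        rw [pow_succ] at hk
        simp only [Nat.add_sub_cancel]; omega
    have h3 := Nat.le_of_dvd (pow_pos two_pos _) (orderOf_dvd_of_pow_eq_one (pow_eq_one hρ (x := x)
      (k := k) (j := k - 2) (by rw [← hk, ← coe_pow, pow_card_eq_one', coe_one]) (by
        obtain ⟨k, rfl⟩ := Nat.exists_eq_add_of_lt c
        have := k.lt_two_pow_self
        rw [show 5 + k + 1 - 2 = k + 4 by omega, pow_add]; omega)))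
    rw [orderOf_coe] at h3
    have := (Nat.pow_le_pow_iff_right one_lt_two).1 (hx.trans h3)
    omega

theorem bounds_of_rank2 (hH : IsStronglyEmbedded H) (h2 : PS.Rank2 G) (S : Sylow 2 G)
    (hρ : Function.Injective ρ) : (∀ k : ℕ, #|(S : Subgroup G)| = 2 ^ k → 2 * k ≤ finrank (ZMod 2) V) ∧
      ∀ n : ℕ, ∀ Z ≤ (S : Subgroup G), (∀ z ∈ Z, z ^ 2 = 1) → #|Z| = 2 ^ n → ∀ s ∈ (S : Subgroup G),
        s ≠ 1 → n ≤ finrank (ZMod 2) (LinearMap.range (ρ s - 1)) := by
  have := nontrivial_quot hH.1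
  obtain ⟨_, -, _, hR, h⟩ := exists_quot (IFix.of_isStronglyEmbedded hH) h2
  obtain ⟨t, Q, hS, hQ⟩ := h ((1 : G) : G ⧸ H)
  obtain ⟨n, hn, h1, h3, h4⟩ := exists_big hS hR
  let π := QuotientGroup.mk' (oddCore G)
  have hπ : Function.Surjective π := QuotientGroup.mk'_surjective _
  have hne : ∀ s ∈ (S : Subgroup G), s ≠ 1 → π s ≠ 1 := fun s hs h =>
    let ⟨_, hk⟩ := MSS.isPGroup_iff_forall_mem.1 S.isPGroup' s hs; mk_ne_one hk h
  obtain ⟨S0, rfl⟩ := exists_sylow_eq hS hQ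
  obtain ⟨g, hg⟩ := MulAction.exists_smul_eq (G ⧸ oddCore G) (S.mapSurjective hπ) S0
  let f : S →* G ⧸ oddCore G := (MulAut.conj g).toMonoidHom.comp (π.comp (S : Subgroup G).subtype)
  have hf : Function.Injective f := (MulAut.conj g).injective.comp
    ((injective_iff_map_eq_one (π.comp (S : Subgroup G).subtype)).2 fun s e =>
      Subtype.ext (by_contra fun c => hne s s.2 c e))
  have hf' : f.range = S0 := by
    rw [← hg, MonoidHom.range_comp, MonoidHom.range_comp, range_subtype]; rfl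
  have hb : ∀ {d}, Big 2 d t → ∀ s ∈ (S : Subgroup G), s ≠ 1 → Big 2 d s := fun h s hs h' => by
    obtain ⟨_, ⟨i, rfl⟩, hy2⟩ := SPE.exists_mem_orderOf_eq_of_isPGroup
      (S.isPGroup'.to_le (zpowers_le.2 hs)) (mt zpowers_eq_bot.1 h')
    obtain ⟨j, hj⟩ := mem_powers_iff_mem_zpowers.2 (zpow_mem_zpowers s i)
    simp only [← hj] at hy2
    obtain ⟨c, hc⟩ := PS.exists_conj_involution hS hS.ne_one hS.mul_self
      (hne _ (pow_mem hs j) (ne_one_of_orderOf_eq_two hy2))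
      (by rw [← map_mul, mul_self_of_orderOf_eq_two hy2, map_one])
    exact (Big.of_map hπ (hc ▸ h.conj c)).of_pow
  refine ⟨fun k hk => ?_, fun m Z hZ hZ2 hm s hs hs1 => le_trans ?_ ((big_aux hρ).2 (hb h3 s hs hs1))⟩
  · rw [Nat.card_congr (MonoidHom.ofInjective hf).toEquiv, hf'] at hk
    obtain ⟨l, h4, h5⟩ | h4 := h4
    · obtain rfl : k = l := Nat.pow_right_injective le_rfl (hk.symm.trans h4)
      obtain ⟨c, hc⟩ := hπ t
      exact (big_aux hρ).1 (Big.of_map hπ (hc ▸ h5))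
    obtain rfl : k = 3 * n := Nat.pow_right_injective le_rfl (hk.symm.trans h4)
    obtain ⟨r, r1, r2, r3⟩ := CL.Zsig.exists_zsigmondy_prime 2 (2 * (3 * n)) one_lt_two
      (by omega) (by omega) (by omega)
    refine le_of_prime_dvd hρ r1 ?_ r3 (dvd_trans ?_ (card_dvd_of_surjective π hπ))
    · rintro rfl
      exact absurd ((Nat.dvd_sub_iff_right (Nat.one_le_pow _ _ two_pos)
        (dvd_pow_self 2 (by omega))).1 r2) (by norm_num)
    · rw [mul_comm, pow_mul, ← one_pow 2, Nat.sq_sub_sq] at r2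
      refine ((r1.dvd_mul.1 r2).resolve_right (r3 _ (by omega) (by omega))).trans ?_
      rw [← h4, ← PS.index_stabilizer_eq hS]
      exact index_dvd_card _
  · rw [← Nat.pow_le_pow_iff_right one_lt_two, ← hm, ← h1]
    exact Nat.card_le_card_of_injective (fun z : Z => ⟨f ⟨z, hZ z.2⟩, hf' ▸ ⟨_, rfl⟩, by
      rw [← map_mul, ← sq, show (⟨z, hZ z.2⟩ : S) ^ 2 = 1 from Subtype.ext (hZ2 z z.2), map_one]⟩)
      fun a b e => Subtype.ext (congrArg Subtype.val (hf (congrArg Subtype.val e)) :)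

end CL.SEMod
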